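import Cfsg.Agent.Lib.T2.HC
import Cfsg.Agent.Lib.Comp.GenFitting
import Cfsg.Prelude.Def_MonsterType

/-!
# Groups of Held type whose extraspecial subgroups meet in few conjugates (helper5)
-/

set_option autoImplicit false

namespace Cfsg.Lib.T2.H

open Cfsg.Lib.Calc Cfsg.Lib.Grp Cfsg.Lib.ES Subgroup

variable {G : Type*} [Group G] {γ : ℕ → G}

theorem isConj_of_orCj {K : ℕ → Subgroup G} {u : G} {x : W} (a : avoid 40 x = true) {l : List W}
    (h : (orCj x l).holds K (upd γ 40 u)) : IsConj u (x.ev γ) := by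
  induction l with
  | nil => exact absurd trivial h
  | cons t l ih => exact h.elim (fun e => isConj_iff.2 ⟨_, (mul_inv_eq_iff_eq_mul.2 e).trans (ev_upd a)⟩) ih

theorem ncard_ne [Finite G] {P : PM} [NeZero P.n] (h : P.OK) (I : IsoW P.gam γ) {z : G} (z2 : z * z = 1)
    (c2 : Nat.card (genW P.gam (P.ws 2)) = 16) {x y : W} {l m : List W} (c : P.eval (invF x y l m) = true)
    (a : avoid 40 x = true) (b : avoid 40 y = true) (hx : ¬ IsConj z (x.ev γ)) (hy : ¬ IsConj z (y.ev γ)) :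
    {u | u ∈ genW γ (P.ws 1) ∧ IsConj z u}.ncard ≠ 29 := by
  have : {u | u ∈ genW γ (P.ws 1) ∧ IsConj z u} ⊆ genW γ (P.ws 2) := fun u ⟨d, e⟩ => by
    obtain ⟨g, rfl⟩ := isConj_iff.1 e
    exact (h.transfer I c _ d (show _ * _ = 1 from conj_mul.trans (by rw [z2, mul_one, mul_inv_cancel]))).resolve_right
      fun f => f.elim (fun f => hx (e.trans (isConj_of_orCj a f))) fun f => hy (e.trans (isConj_of_orCj b f))
  have := Set.ncard_le_ncard this
  rw [← Nat.card_coe_set_eq (genW γ (P.ws 2) : Set G), show Nat.card (genW γ (P.ws 2) : Set G) = 16 from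
    (I.card_eq _).symm.trans c2] at this
  omega

theorem ext_iso {P : PM} [NeZero P.n] (I : IsoW P.gam γ) (ws : List (List W)) (Ls : List (List (ℕ × List ℕ)))
    (Ds : List (List ℕ)) : IsoW (ext P ws Ls Ds).gam γ := I

/-- few conjugates in the intersection -/
def Three (z : G) (Q : Subgroup G) : Prop := ∀ g u, g * z * g⁻¹ ∈ Q → g * z * g⁻¹ ≠ z → u ∈ Q → g⁻¹ * u * g ∈ Q →
  IsConj z u → u = z ∨ u = g * z * g⁻¹ ∨ u = z * (g * z * g⁻¹)

open L in
theorem isoHe_u [Finite G] (J : LH γ) (hQ : ∀ δ : ℕ → G, LH δ → zz δ = zz γ → Three (zz δ) (KK δ 6))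
    (h : IsConj (zz γ) (uu γ)) : Spor.IsoHe G := by
  obtain ⟨s, K, B⟩ := J.exists_s h
  have h3 := hQ _ K rfl
  replace h : IsConj (zz (upd γ 7 s)) (uu (upd γ 7 s)) := h
  generalize upd γ 7 s = δ at K B h h3
  rcases B with B | B
  · have := h3 (δ 7) (δ 4) (B.sz ▸ K.mem) (B.sz ▸ K.ne) K.mem
      (by rw [mul_assoc, ← mul_inv_eq_iff_eq_mul.1 B.sd, inv_mul_cancel_left]; exact K.mem)
      (h.trans (K.mj (δ 5 * δ 6)).symm.isConj)
    rw [B.sz] at this
    rcases this with e | e | e <;> exact absurd e K.ne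
  rcases K.relA B with r | r
  · have I : IsoW am.gam (resA δ) := isoA am_ok am_lab am_res rfl rfl K (card_AM_le (K.lab.prod am_lab) (rels_prod r am_rel))
      am_card0 am_card2 (rels_of_isIn am_rel (by decide +kernel)) (am_Cz (am_res.symm ▸ .refl _))
      (qeq am_ok (IsoW.refl _).quo) (qeq am_ok (IsoW.refl _).quo)
    generalize hg : δ 7 * δ 1 * δ 5 * δ 7 * δ 1 * δ 5 * δ 7 * δ 5 * δ 7 = g
    have a : g * zz δ * g⁻¹ = ee δ := hg ▸ am_ok.req I (by decide +kernel)
    have b : g⁻¹ * δ 1 * g = nn δ := hg ▸ am_ok.req I (by decide +kernel)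
    have := h3 g (δ 1) (a ▸ K.mem) (a ▸ K.ne) K.mem (b ▸ K.mem) (IsConj.trans (isConj_iff.2 ⟨g, a⟩)
      (K.mj (δ 6 * δ 5)).symm.isConj)
    rw [a] at this
    rcases this with e | e | e <;> exact absurd e K.ne
  · obtain ⟨μ, c, d, e⟩ := exists_he
    have := He.simple
    have := Nat.finite_of_card_ne_zero He.card_le.1
    exact equiv_of_simple c K (card_He_le (K.lab.prod c) (rels_prod (rels_append (rels_append K.rel r)
      (List.forall_mem_singleton.2 (mul_inv_eq_one.2 B.sq))) d)) He.card.ge e (K.topH B r)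

open L in
theorem isoHe_LH [Finite G] (J : LH γ) {Q : Subgroup G} (hQ : ∀ δ : ℕ → G, LH δ → zz δ = zz γ → KK δ 6 = Q)
    (h3 : Three (zz γ) Q) {g : G} (hg : g * zz γ * g⁻¹ ∈ Q) (hne : g * zz γ * g⁻¹ ≠ zz γ) : Spor.IsoHe G := by
  have k : ∀ δ : ℕ → G, LH δ → zz δ = zz γ → Three (zz δ) (KK δ 6) := fun δ a b => by rw [hQ δ a b, b]; exact h3
  have b : IsConj (zz γ) (g * zz γ * g⁻¹) := isConj_iff.2 ⟨g, rfl⟩
  rw [← hQ γ J rfl] at hg
  generalize g * zz γ * g⁻¹ = x at *
  have key : ∀ {y}, MJ (KK γ 0) x y → y ∈ KK γ 6 := fun ⟨k, a, e⟩ => e ▸ (mem_normalizer_iff.1 (J.normQ a) x).1 hg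
  rcases J.cases (J.mem_iff.1 (J.le0 6 hg)) (J.sq_of_conj b) with e | e | e | e | e | e | e | e | e
  · exact absurd (e ▸ b) J.nz1
  · exact absurd e hne
  · exact isoHe_u J.sw (fun δ a c => k δ a (c.trans J.sw_z)) (by rw [J.sw_z, J.sw_u]; exact b.trans e.isConj)
  · exact isoHe_u J k (b.trans e.isConj)
  · exact absurd (b.trans e.isConj) J.nt
  all_goals exact absurd (key e) J.nmem

theorem isoHe_of_three [Finite G] {t : G} {Q : Subgroup (centralizer ({t} : Set G))} [Q.Normal]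
    (h : IsExtraspecialCentralizerSetting t Q 3)
    (e : centralizer ({t} : Set G) ⧸ Q ≃* Matrix.SpecialLinearGroup (Fin 3) (ZMod 2))
    (h29 : {x | x ∈ Q.map (Subgroup.subtype _) ∧ IsConj t x}.ncard = 29) (h3 : Three t (Q.map (Subgroup.subtype _))) :
    Spor.IsoHe G := by
  obtain ⟨ht, hF, hQ, hc, g, ⟨g0, g1⟩, g2⟩ := h
  have h2 : centralizer (Q : Set (centralizer ({t} : Set G))) ≤ Q := hF ▸ Comp.centralizer_genFitting_le
  have hm : ∀ N : Subgroup G, N ≤ centralizer {t} → centralizer {t} ≤ normalizer (N : Set G) → Nat.card N = 128 →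
      N = Q.map (Subgroup.subtype _) := fun N a b c => by
    refine eq_of_le_of_card_ge ?_ (by rw [Core.card_map_subtype, hc, c]; rfl)
    rw [← inf_eq_left.2 a, ← subgroupOf_map_subtype]
    exact map_mono (hF ▸ (Core.le_pCore ((normal_subgroupOf_iff_le_normalizer a).2 b)
      ((IsPGroup.of_card (n := 7) c).comap_subtype)).trans (Comp.pCore_le_genFitting 2))
  let z : centralizer ({t} : Set G) := ⟨t, mem_centralizer_singleton_iff.2 rfl⟩
  have cz : ∀ y, y * z = z * y := fun y => Subtype.ext (mem_centralizer_singleton_iff.1 y.2)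
  have s : Sy Q z := Sy.of_isExtraspecial hQ (h2 fun y _ => cz y) ((orderOf_coe z).symm.trans ht) fun y _ =>
    mem_centralizer_singleton_iff.2 (cz y)
  have X : Xs ⊤ Q z := ⟨s, hQ, le_top, by rw [normalizer_eq_top], fun y _ hy => s.mem_iff.1
    (inf_centralizer_eq_zpowers hQ s.mem s.ne_one s.cent ▸ mem_inf.2 ⟨h2 hy, hy⟩)⟩
  have hz : Nat.card (centralizer ({t} : Set G)) = 21504 := by
    rw [card_eq_card_quotient_mul_card_subgroup Q, hc, Nat.card_congr e.toEquiv, GLC.card_SL_eq 2]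
    simp [Finset.prod_range_succ]
  obtain ⟨w, x, a1, a2, a3, a4, a5⟩ := exists_gens (fun y hy => by
    rw [show 4 = 2 * 2 from rfl, pow_mul]
    rcases s.mem_iff.1 (s.sq_mem y hy) with f | f <;> rw [f]
    exacts [one_pow 2, (sq z).trans s.mul_self]) e
  obtain ⟨β, b1, b2, b3, b4⟩ := exists_lets X (card_top.trans hz) hc (X.plus (m := 2) hc (by rw [card_top, hz]; decide))
    (w := ⟨w, trivial⟩) (x := ⟨x, trivial⟩) (Subtype.ext a1) a2 a3 a4 a5
  have j := IsoW.of_hom _ (⊤ : Subgroup (centralizer ({t} : Set G))).subtype_injective β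
  have hL := j.quo.lab b1
  have top : genW (fun c => (⊤ : Subgroup (centralizer ({t} : Set G))).subtype (β c)) wH = ⊤ := by
    rw [← map_genW, b2, ← MonoidHom.range_eq_map, range_subtype]
  have e : (wz.ev fun c => (⊤ : Subgroup (centralizer ({t} : Set G))).subtype (β c)).1 = t := by
    rw [← W.map_ev]; exact congrArg Subtype.val b3
  have h : Four _ := b4.imp j.quo.rels (.imp j.quo.rels (.imp j.quo.rels j.quo.rels))
  generalize (fun c => (⊤ : Subgroup (centralizer ({t} : Set G))).subtype (β c)) = γ at hL top e h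
  have c : 21504 ≤ Nat.card (genW γ wH) := by rw [top, card_top, hz]
  have j := IsoW.of_hom _ (centralizer ({t} : Set G)).subtype_injective γ
  have u : genW (fun c => (centralizer ({t} : Set G)).subtype (γ c)) wH = centralizer {t} := by
    rw [← map_genW, top, ← MonoidHom.range_eq_map, range_subtype]
  have v : genW (fun c => (centralizer ({t} : Set G)).subtype (γ c)) wH =
      centralizer {wz.ev fun c => (centralizer ({t} : Set G)).subtype (γ c)} := by
    rw [u, ← W.map_ev]; exact congrArg (centralizer {·}) e.symm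
  have t2 := mul_self_of_orderOf_two ht
  have n : ∀ {x T}, SylC T x → 2 * Nat.card T ∣ 21504 → ¬ IsConj t x := fun a b e =>
    a.nd (L.card_cen_of_isConj e ▸ hz ▸ b)
  rcases h with h | h | h | h
  · have b : genW (newLet L.hh.gam lab0) wH = L.hh.K 0 := le_antisymm (genW_le.2 fun t _ => Set.mem_of_eq_of_mem
      (W.ev_subst _ _ t).symm (L.hh_ok.ev_mem (IsoW.refl _).quo _)) (genW_le.2 fun t ht => by
        obtain ⟨i, hi, rfl⟩ := List.getElem_of_mem ht
        have := L.hh_ok.holds (φ := .eq _ _) (allP_iff.1 d0_back ((L.hh.ws 0)[i], back0[i]'hi)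
          (List.mem_iff_getElem.2 ⟨i, hi, List.getElem_zip⟩))
        exact Set.mem_of_eq_of_mem (this.trans (W.ev_subst _ _ _))
          (ev_mem_of_forall (Lab.mem_genW d0_lab (by decide) (by decide)) _))
    obtain ⟨f⟩ := (isoW_of_rel (fun a b => tcD0_index a b fun _ => mem_genW _) hL h c d0_lab d0_rel
      (b ▸ L.hh_card0.ge)).nonempty_equiv top b
    obtain ⟨δ, J, rfl⟩ := L.exists_LH (ne_one_of_orderOf_two ht) f
    exact isoHe_LH J (fun ε a b => hm _ (b ▸ a.cen ▸ a.le0 6) (b ▸ a.cen ▸ a.normQ) ((a.card 6).trans L.hh_card6)) h3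
      (mem_map_of_mem _ g1) g2
  · have I := (isoW_of_rel (fun a b => tcD1_index a b fun _ => mem_genW _) d1_lab d1_rel d1_card0.ge hL h c).trans j
    have I' : IsoW d1r.gam _ := ext_iso I _ _ _
    exact absurd (hm _ ((d1r_ok.le_zero I'.quo _).trans u.le) (u.ge.trans (d1r_ok.le_normalizer I' d1r_n :))
      ((I'.card_eq _).symm.trans d1r_card1) ▸ h29) (ncard_ne d1r_ok I' t2 d1r_card2 d1r_c rfl rfl
      (n (d1_ok.sylC I v d1_s1) (by rw [← I.card_eq, d1_card1]; decide))
      (n (d1_ok.sylC I v d1_s2) (by rw [← I.card_eq, d1_card2]; decide)))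
  · have I := (isoW_of_rel (fun a b => tcI0_index a b fun _ => mem_genW _) i0_lab i0_rel i0_card0.ge hL h c).trans j
    have k := n (i0_ok.sylC I v i0_s1) (by rw [← I.card_eq, i0_card1]; decide)
    have I' : IsoW i0r.gam _ := ext_iso I _ _ _
    exact absurd (hm _ ((i0r_ok.le_zero I'.quo _).trans u.le) (u.ge.trans (i0r_ok.le_normalizer I' i0r_n :))
      ((I'.card_eq _).symm.trans i0r_card1) ▸ h29) (ncard_ne i0r_ok I' t2 i0r_card2 i0r_c rfl rfl k k)
  · have I := (isoW_of_rel (fun a b => tcI1_index a b fun _ => mem_genW _) i1_lab i1_rel i1_card0.ge hL h c).trans j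
    have k := n (i1_ok.sylC I v i1_s1) (by rw [← I.card_eq, i1_card1]; decide)
    have I' : IsoW i1r.gam _ := ext_iso I _ _ _
    exact absurd (hm _ ((i1r_ok.le_zero I'.quo _).trans u.le) (u.ge.trans (i1r_ok.le_normalizer I' i1r_n :))
      ((I'.card_eq _).symm.trans i1r_card1) ▸ h29) (ncard_ne i1r_ok I' t2 i1r_card2 i1r_c rfl rfl k k)

end Cfsg.Lib.T2.H
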